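import Cfsg.Agent.H72.AdjOrth

/-!
# Team T3 (S3435), box P1: Siegel transvections, elements of order `p` in orthogonal groups of both types (helper15)
-/

set_option autoImplicit false

namespace Cfsg.Agent.R2.Spec.P1

open Module QuadraticMap
open Cfsg.Agent.H377
open Cfsg.Agent.LieClassical.OrthCore

section

variable {F : Type*} [Field F] {A : Type*} [AddCommGroup A] [Module F A]

/-- the Siegel transvection of `(F × F) ⊥ A` -/
def sieg (Q : QuadraticForm F A) (w : A) : Module.End F ((F × F) × A) where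
  toFun v := ((v.1.1 - v.1.2 * Q w - polar Q v.2 w, v.1.2), v.2 + v.1.2 • w)
  map_add' v v' := by
    refine Prod.ext (Prod.ext ?_ rfl) ?_
    · simp only [Prod.fst_add, Prod.snd_add, polar_add_left]
      ring
    · simp only [Prod.fst_add, Prod.snd_add, add_smul]
      abel
  map_smul' c v := by
    refine Prod.ext (Prod.ext ?_ rfl) ?_
    · simp only [Prod.smul_fst, Prod.smul_snd, polar_smul_left, smul_eq_mul, RingHom.id_apply]
      ring
    · simp only [Prod.smul_fst, Prod.smul_snd, smul_eq_mul, RingHom.id_apply, smul_add, mul_smul]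

theorem sieg_apply (Q : QuadraticForm F A) (w : A) (v : (F × F) × A) :
    sieg Q w v = ((v.1.1 - v.1.2 * Q w - polar Q v.2 w, v.1.2), v.2 + v.1.2 • w) := rfl

theorem sieg_zero (Q : QuadraticForm F A) : sieg Q 0 = 1 := by
  refine LinearMap.ext fun v => ?_
  rw [sieg_apply, QuadraticMap.map_zero, polar_zero_right, mul_zero, sub_zero, sub_zero, smul_zero, add_zero]
  rfl

theorem sieg_mul (Q : QuadraticForm F A) (v w : A) : sieg Q v * sieg Q w = sieg Q (v + w) := by
  refine LinearMap.ext fun u => ?_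
  rw [Module.End.mul_apply, sieg_apply, sieg_apply, sieg_apply]
  refine Prod.ext (Prod.ext ?_ rfl) ?_
  · simp only [polar_add_left, polar_smul_left, smul_eq_mul, polar_add_right]
    have h1 : Q (v + w) = Q v + Q w + polar Q w v := by
      rw [polar_comm, polar]
      ring
    rw [h1]
    ring
  · simp only [smul_add]
    abel

theorem sieg_pow (Q : QuadraticForm F A) (w : A) (k : ℕ) : sieg Q w ^ k = sieg Q (k • w) := by
  induction k with
  | zero => rw [pow_zero, zero_smul, sieg_zero]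
  | succ k ih => rw [pow_succ, ih, sieg_mul, succ_nsmul]

theorem sieg_quad [Finite F] (Q : QuadraticForm F A) (w : A) (v : (F × F) × A) :
    sumQ (hypQ F) Q (sieg Q w v) = sumQ (hypQ F) Q v := by
  rw [sumQ_apply, sumQ_apply, sieg_apply, hypQ_apply, hypQ_apply]
  have h1 : Q (v.2 + v.1.2 • w) = Q v.2 + v.1.2 * v.1.2 * Q w + v.1.2 * polar Q v.2 w := by
    have h2 : polar Q v.2 (v.1.2 • w) = v.1.2 * polar Q v.2 w := by
      rw [polar_smul_right, smul_eq_mul]
    have h3 : Q (v.1.2 • w) = v.1.2 * v.1.2 * Q w := by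
      rw [QuadraticMap.map_smul, smul_eq_mul]
    rw [← h2, ← h3, polar]
    ring
  rw [h1]
  ring

theorem sieg_ne (Q : QuadraticForm F A) {w : A} (hw : w ≠ 0) : sieg Q w ≠ 1 := by
  intro h
  have h1 := congrArg Prod.snd (LinearMap.congr_fun h (((0 : F), (1 : F)), (0 : A)))
  rw [sieg_apply] at h1
  change (0 : A) + (1 : F) • w = 0 at h1
  rw [one_smul, zero_add] at h1
  exact hw h1

end

/-- **elements of order `p`, both types** -/
theorem elt_p {F : Type*} [Field F] [Finite F] {p : ℕ} (hp : p.Prime) [CharP F p] {n : ℕ} (hn : 2 ≤ n) {ε : ℤ}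
    (hε : ε = 1 ∨ ε = -1) : Elt F n ε p := by
  have := Fact.mk hp
  obtain ⟨m, rfl⟩ : ∃ m, n = 1 + m := ⟨n - 1, by omega⟩
  obtain ⟨-, Q, -, hQ, hs, -, -⟩ := elt_one_pm (F := F) (n := m) (by omega) hε
  have h1 := (hasSign_mul (F := F)).prod hs
  rw [one_mul] at h1
  obtain ⟨w, hw⟩ : ∃ w : Fin (2 * m) → F, w ≠ 0 := ⟨fun _ => 1, fun h => one_ne_zero (congrFun h ⟨0, by omega⟩)⟩
  refine Elt.of (V := (F × F) × (Fin (2 * m) → F)) (Q := sumQ (hypQ F) Q) (g := sieg Q w) ?_
    (sumQ_nondeg hypQ_nondeg hQ) h1 (sieg_quad Q w) hp.pos ?_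
  · rw [Module.finrank_prod, Module.finrank_prod, Module.finrank_self, Module.finrank_fin_fun]
    ring
  · refine orderOf_eq_prime ?_ (sieg_ne Q hw)
    rw [sieg_pow]
    have : (p • w : Fin (2 * m) → F) = 0 := by
      funext i
      rw [Pi.smul_apply, nsmul_eq_mul, CharP.cast_eq_zero, zero_mul]
      rfl
    rw [this, sieg_zero]

end Cfsg.Agent.R2.Spec.P1
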