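import Cfsg.Agent.R2.Spec.P1.TopBlk
import Cfsg.Agent.H160.QFinal
import Cfsg.Agent.H160.QChar
import Cfsg.Agent.H899.O7.Zass
import Cfsg.Agent.H437.Win.Eig

/-!
# Team T3 (S3435), box P1b: isometries of quadratic spaces (helper15)
-/

set_option autoImplicit false
set_option linter.unusedSectionVars false

namespace Cfsg.Agent.R2.Spec.P1.Eig

open QuadraticMap Module Polynomial
open Cfsg.Agent.LieClassical.OrthCore Cfsg.Agent.H160.QSpin Cfsg.Agent.H160.QDisc Cfsg.Agent.H160.QSplit
open Cfsg.Agent.H160.QRoots Cfsg.Agent.H160.QChar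

section

variable {F V : Type*} [Field F] [AddCommGroup V] [Module F V] [FiniteDimensional F V]

theorem eval_rts (f : V →ₗ[F] V) (a : F) : algebraMap F (AlgebraicClosure F) (f.charpoly.eval a) =
    ((rts f).map (fun x => algebraMap F (AlgebraicClosure F) a - x)).prod := by
  rw [← Polynomial.coe_aeval_eq_eval, ← Polynomial.aeval_algebraMap_apply, ← Polynomial.eval_map_algebraMap,
    eq_prod, Polynomial.eval_multiset_prod, Multiset.map_map]
  congr 2
  ext x
  simp

theorem prod_neg (R : Multiset (AlgebraicClosure F)) (f : AlgebraicClosure F → AlgebraicClosure F) :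
    (R.map (fun x => -f x)).prod = (-1) ^ R.card * (R.map f).prod := by
  have h : R.map (fun x => -f x) = R.map (fun x => (-1) * f x) := Multiset.map_congr rfl fun x _ => by ring
  rw [h, Multiset.prod_map_mul, Multiset.map_const', Multiset.prod_replicate]

theorem prod_rts {f : V →ₗ[F] V} (h : LinearMap.det f = 1) : (rts f).prod = 1 := by
  have h1 := eval_rts f 0
  rw [LinearMap.eval_charpoly, map_zero, zero_sub, map_zero] at h1
  have h2 : LinearMap.det (-f) = (-1) ^ finrank F V := by
    rw [← neg_one_smul F f, LinearMap.det_smul, h, mul_one]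
  have h3 : (rts f).map (fun x => (0 : AlgebraicClosure F) - x) = (rts f).map (fun x => -(id x)) :=
    Multiset.map_congr rfl fun x _ => by simp
  rw [h2, h3, prod_neg, card_rts, Multiset.map_id, map_pow, map_neg, map_one] at h1
  have h4 : ((-1 : AlgebraicClosure F)) ^ finrank F V ≠ 0 := pow_ne_zero _ (by norm_num)
  exact (mul_right_injective₀ h4 (by simpa using h1)).symm

theorem psi_rts (hev : Even (finrank F V)) (f : V →ₗ[F] V) :
    psi (rts f) = algebraMap F (AlgebraicClosure F) (LinearMap.det (1 + f)) := by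
  have h1 := eval_rts f (-1)
  rw [LinearMap.eval_charpoly] at h1
  have h2 : algebraMap F (Module.End F V) (-1) - f = (-1 : F) • (1 + f) := by
    rw [map_neg, map_one, neg_one_smul]; abel
  have h3 : (rts f).map (fun x => algebraMap F (AlgebraicClosure F) (-1) - x) =
      (rts f).map (fun x => -(1 + x)) := Multiset.map_congr rfl fun x _ => by rw [map_neg, map_one]; ring
  rw [h2, LinearMap.det_smul, hev.neg_one_pow, one_mul, h3, prod_neg, card_rts, hev.neg_one_pow, one_mul] at h1
  exact h1.symm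

theorem psim_rts (f : V →ₗ[F] V) :
    ((rts f).map (fun x => 1 - x)).prod = algebraMap F (AlgebraicClosure F) (LinearMap.det (1 - f)) := by
  have h1 := eval_rts f 1
  rw [LinearMap.eval_charpoly, map_one, map_one] at h1
  exact h1.symm

end

section

variable {F V : Type*} [Field F] [Fintype F] [AddCommGroup V] [Module F V] [FiniteDimensional F V]

theorem ed_rts [DecidableEq (AlgebraicClosure F)] {Q : QuadraticForm F V} (hQ : Nondeg Q) {g : V ≃ₗ[F] V}
    (hg : g ∈ O Q) : ED (Fintype.card F) (rts (en g)) where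
  frob x := by
    have := count_frob (en g) x
    convert this using 2
  inv x := by
    have := count_inv hQ hg x
    convert this using 2
  ne0 := by
    rintro x hx rfl
    rw [← map_zero (algebraMap F (AlgebraicClosure F)), mem_rts_iff] at hx
    obtain ⟨v, hv⟩ := hx.exists_hasEigenvector
    have h3 := hv.apply_eq_smul
    rw [zero_smul] at h3
    exact hv.2 (g.map_eq_zero_iff.1 h3)

theorem frob_add' (F : Type*) [Field F] [Fintype F] (x y : AlgebraicClosure F) :
    (x + y) ^ Fintype.card F = x ^ Fintype.card F + y ^ Fintype.card F := by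
  obtain ⟨φ, h1, -⟩ := exists_frob F
  rw [← h1, ← h1, ← h1, map_add]

theorem qc_eq (h2 : (2 : F) ≠ 0) [DecidableEq F] {e : ℕ} (he : Fintype.card F = 2 * e + 1) (a : F) :
    ((quadraticChar F a : ℤ) : AlgebraicClosure F) = (algebraMap F (AlgebraicClosure F) a) ^ e := by
  have hchar : ringChar F ≠ 2 := by
    intro h
    apply h2
    have := ringChar.spec F 2
    rw [h] at this
    exact_mod_cast this.2 dvd_rfl
  have h1 := quadraticChar_eq_pow_of_char_ne_two' hchar a
  have h3 : Fintype.card F / 2 = e := by omega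
  rw [h3] at h1
  rw [← map_pow, ← h1, map_intCast]

/-- `-1` is an eigenvalue -/
theorem mem_neg_one_iff {g : V ≃ₗ[F] V} : (-1 : AlgebraicClosure F) ∈ rts (en g) ↔ LinearMap.det (1 + en g) = 0 := by
  rw [show (-1 : AlgebraicClosure F) = algebraMap F (AlgebraicClosure F) (-1) by rw [map_neg, map_one], mem_rts_iff]
  constructor
  · intro h
    obtain ⟨v, hv⟩ := h.exists_hasEigenvector
    by_contra hne
    have h1 : IsUnit (1 + en g) := (LinearMap.isUnit_iff_isUnit_det _).2 (isUnit_iff_ne_zero.2 hne)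
    have h2 := ((Module.End.isUnit_iff _).1 h1).1
    apply hv.2
    apply h2
    rw [map_zero, LinearMap.add_apply, Module.End.one_apply, hv.apply_eq_smul, neg_one_smul, add_neg_cancel]
  · intro h
    have h1 : ¬ LinearMap.ker (1 + en g) = ⊥ := by
      intro hk
      have h2 := (LinearMap.isUnit_iff_isUnit_det _).1 ((LinearMap.isUnit_iff_ker_eq_bot (1 + en g)).2 hk)
      rw [h] at h2
      exact not_isUnit_zero h2
    obtain ⟨v, hv, hv0⟩ := (Submodule.ne_bot_iff _).1 h1
    refine Module.End.hasEigenvalue_of_hasEigenvector (x := v) ⟨?_, hv0⟩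
    rw [Module.End.mem_eigenspace_iff, neg_one_smul]
    rw [LinearMap.mem_ker, LinearMap.add_apply, Module.End.one_apply] at hv
    exact (neg_eq_of_add_eq_zero_right hv).symm

variable [DecidableEq F] [Finite V]

/-- the spinor sign -/
theorem zass_rts (h2 : (2 : F) ≠ 0) {e : ℕ} (he : Fintype.card F = 2 * e + 1) {Q : QuadraticForm F V}
    (hQ : Nondeg Q) (hev : Even (finrank F V)) {s : ℤˣ} {g : V ≃ₗ[F] V} (hg : El Q s g)
    (hne : (-1 : AlgebraicClosure F) ∉ rts (en g)) :
    psi (rts (en g)) ^ e = (((s : ℤˣ) : ℤ) : AlgebraicClosure F) := by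
  obtain ⟨hgO, hdet, hs⟩ := hg
  rw [mem_neg_one_iff] at hne
  have h1 := Cfsg.Agent.H899.O7.Zass.zass h2 hQ hev (finrank F V) hgO hdet hne (by omega)
  rw [psi_rts hev, ← qc_eq h2 he, ← h1, hs]

/-- the spinor sign of `-g` -/
theorem zass_rts_neg (h2 : (2 : F) ≠ 0) {e : ℕ} (he : Fintype.card F = 2 * e + 1) {Q : QuadraticForm F V}
    (hQ : Nondeg Q) (hev : Even (finrank F V)) {s : ℤˣ} {g : V ≃ₗ[F] V} (hg : El Q s g)
    (hne : (1 : AlgebraicClosure F) ∉ rts (en g)) :
    ((rts (en g)).map (fun x => 1 - x)).prod ^ e = ((((s : ℤˣ) : ℤ) * dc Q : ℤ) : AlgebraicClosure F) := by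
  obtain ⟨u, hu⟩ : ∃ u : ℤˣ, (u : ℤ) = dc Q := by
    rcases dc_cases hQ with h | h
    · exact ⟨1, by rw [h]; rfl⟩
    · exact ⟨-1, by rw [h]; rfl⟩
  have hn := (el_neg h2 hQ hev hu).mul hg
  obtain ⟨hgO, hdet, hs⟩ := hn
  have h3 : (1 : Module.End F V) + en (LinearEquiv.neg F * g) = 1 - en g := by
    ext v
    show v + -(g v) = v - g v
    abel
  have h4 : LinearMap.det (1 + en (LinearEquiv.neg F * g)) ≠ 0 := by
    rw [h3]
    intro h5
    apply hne
    have h6 := psim_rts (en g)
    rw [h5, map_zero, Multiset.prod_eq_zero_iff, Multiset.mem_map] at h6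
    obtain ⟨x, hx, hx1⟩ := h6
    have : x = 1 := by linear_combination -hx1
    rw [← this]
    exact hx
  have h1 := Cfsg.Agent.H899.O7.Zass.zass h2 hQ hev (finrank F V) hgO hdet h4 (by omega)
  rw [psim_rts, ← qc_eq h2 he, ← h3, ← h1, hs, ← hu, Units.val_mul, mul_comm]

/-- the class -/
theorem dc_rts (h2 : (2 : F) ≠ 0) {e : ℕ} (he : Fintype.card F = 2 * e + 1) {Q : QuadraticForm F V}
    (hQ : Nondeg Q) {s : ℤˣ} {g : V ≃ₗ[F] V} (hg : El Q s g) (hne : ∀ x ∈ rts (en g), x ≠ x⁻¹) :
    Cfsg.Agent.H160.QRoots.phi (rts (en g)) ^ e = ((dc Q : ℤ) : AlgebraicClosure F) := by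
  obtain ⟨hgO, hdet, hs⟩ := hg
  have hdet1 : LinearMap.det (en g) = 1 := by
    have := congrArg Units.val hdet
    rwa [LinearEquiv.coe_det] at this
  have key : ∀ (a : F), a = a⁻¹ → ∀ v, g v = a • v → v = 0 := by
    intro a ha v hv
    by_contra hv0
    have h3 : Module.End.HasEigenvalue (en g) a :=
      Module.End.hasEigenvalue_of_hasEigenvector (x := v) ⟨Module.End.mem_eigenspace_iff.2 hv, hv0⟩
    have h4 := (mem_rts_iff (en g) a).2 h3
    apply hne _ h4
    rw [← map_inv₀, ← ha]
  obtain ⟨-, h3⟩ := dc_of_no_pm hQ hgO (fun v hv => key 1 (by norm_num) v (by rw [one_smul, hv]))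
    (fun v hv => key (-1) (by norm_num) v (by rw [neg_one_smul, hv])) hdet1
  rw [phi_rts, h3, qc_eq h2 he]

end

section Scal

variable {F V : Type*} [Field F] [AddCommGroup V] [Module F V] [FiniteDimensional F V]

/-- **Scalar powers.** -/
theorem scal_of_rts {p : ℕ} [Fact p.Prime] [CharP F p] {f : Module.End F V} {T : ℕ} {z : AlgebraicClosure F}
    (h : ∀ x ∈ rts f, x ^ T = z) (hN : 1 ≤ finrank F V) :
    ∃ c : F, f ^ (T * p ^ finrank F V) = c • (1 : Module.End F V) := by
  classical
  have : CharP (AlgebraicClosure F) p := charP_of_injective_algebraMap (algebraMap F (AlgebraicClosure F)).injective p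
  have hp := (Fact.out : p.Prime)
  let b := finBasis F V
  set M := LinearMap.toMatrix b b f with hM
  have h1 : (M.map (algebraMap F (AlgebraicClosure F))).charpoly.roots = rts f := by
    rw [Matrix.charpoly_map, hM, LinearMap.charpoly_toMatrix]
    rfl
  have h2 := Cfsg.Agent.H437.Win.pow_scalar (M.map (algebraMap F (AlgebraicClosure F))) (p := p) (k := T)
    (s := finrank F V) (z := z) (by rw [h1]; exact h) (by
      intro x _
      rw [h1]
      refine (Multiset.count_le_card _ _).trans ?_
      rw [card_rts]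
      exact (Nat.lt_pow_self hp.one_lt).le)
  obtain ⟨c, hc⟩ := Cfsg.Agent.H437.Win.scalar_of_map M hN h2
  refine ⟨c, ?_⟩
  have h3 : LinearMap.toMatrix b b (f ^ (T * p ^ finrank F V)) = LinearMap.toMatrix b b (c • (1 : Module.End F V)) := by
    rw [← LinearMap.toMatrix_pow, ← hM, hc, map_smul]
    congr 1
    exact (LinearMap.toMatrix_one b).symm
  exact (LinearMap.toMatrix b b).injective h3

end Scal

end Cfsg.Agent.R2.Spec.P1.Eig
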